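import Mathlib
import Cfsg.Agent.Lib.SymSylow.SylIn

/-!
# Alternating sections: generalities

`H5.AltSec G m`: some subgroup of `G` maps onto the alternating group of degree `m`.
-/

set_option autoImplicit false

namespace H5

open Equiv

/-- Some subgroup of `G` maps onto the alternating group of degree `m`. -/
def AltSec (G : Type*) [Group G] (m : ℕ) : Prop :=
  ∃ (Y : Subgroup G) (φ : Y →* Perm (Fin m)), φ.range = alternatingGroup (Fin m)

namespace AltSec

variable {G G' : Type*} [Group G] [Group G'] {m r : ℕ}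

theorem of_hom {Y : Type*} [Group Y] (ι : Y →* G) (hι : Function.Injective ι)
    (φ : Y →* Perm (Fin m)) (h : φ.range = alternatingGroup (Fin m)) : AltSec G m := by
  refine ⟨ι.range, φ.comp (MonoidHom.ofInjective hι).symm.toMonoidHom, ?_⟩
  rw [MonoidHom.range_comp, MonoidHom.range_eq_top.2 (MonoidHom.ofInjective hι).symm.surjective,
    ← MonoidHom.range_eq_map, h]

theorem of_quot (H : Subgroup G) (K : Subgroup H) [K.Normal]
    (h : Nonempty (H ⧸ K ≃* alternatingGroup (Fin r))) : AltSec G r := by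
  obtain ⟨e⟩ := h
  refine ⟨H, (alternatingGroup (Fin r)).subtype.comp (e.toMonoidHom.comp (QuotientGroup.mk' K)), ?_⟩
  rw [MonoidHom.range_comp, MonoidHom.range_eq_top.2
    (e.surjective.comp (QuotientGroup.mk'_surjective K)), ← MonoidHom.range_eq_map,
    Subgroup.range_subtype]

theorem map (h : AltSec G m) (f : G →* G') (hf : Function.Injective f) : AltSec G' m := by
  obtain ⟨Y, φ, h⟩ := h
  exact of_hom (f.comp Y.subtype) (hf.comp Y.subtype_injective) φ h

theorem mono (h : AltSec G r) (hm : m ≤ r) : AltSec G m := by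
  obtain ⟨Y, φ, h⟩ := h
  let j : Perm (Fin m) →* Perm (Fin r) := Perm.viaEmbeddingHom (Fin.castLEEmb hm)
  have hj : Function.Injective j := Perm.viaEmbeddingHom_injective _
  have hs : ∀ σ, Perm.sign (j σ) = Perm.sign σ := fun σ => by
    have := Perm.sign_extendDomain σ (Equiv.ofInjective _ (Fin.castLEEmb hm).injective)
    convert this
    simp only [j, Perm.viaEmbeddingHom, Perm.extendDomainHom, MonoidHom.coe_mk, OneHom.coe_mk]
    congr
  let Z : Subgroup Y := j.range.comap φ
  let ψ : Z →* Perm (Fin m) := (MonoidHom.ofInjective hj).symm.toMonoidHom.comp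
    ((φ.comp Z.subtype).codRestrict j.range fun z => z.2)
  have hψ : ∀ z, j (ψ z) = φ z := fun z => by
    have := (MonoidHom.ofInjective hj).apply_symm_apply ⟨φ z, z.2⟩
    exact congrArg Subtype.val this
  refine of_hom (Y.subtype.comp Z.subtype) (Y.subtype_injective.comp Z.subtype_injective) ψ ?_
  ext σ
  rw [Perm.mem_alternatingGroup, ← hs, ← Perm.mem_alternatingGroup, ← h]
  constructor
  · rintro ⟨z, rfl⟩
    exact ⟨z, (hψ z).symm⟩
  · rintro ⟨y, hy⟩
    exact ⟨⟨y, σ, hy.symm⟩, hj (by rw [hψ, hy])⟩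

end AltSec

section Lift

variable {Y S : Type*} [Group Y] [Group S] [Finite Y] {s : ℕ} [Fact s.Prime]

theorem map_eq_of_sylIn (φ : Y →* S) {P M : Subgroup Y} (h : H61.SylIn s P M)
    (hX : IsPGroup s (M.map φ)) : P.map φ = M.map φ := by
  have h1 : ((P.subgroupOf M).map (φ.subgroupMap M)).index ∣ P.relIndex M :=
    Subgroup.index_map_dvd _ (φ.subgroupMap_surjective M)
  have : Finite (M.map φ) := Finite.of_surjective _ (φ.subgroupMap_surjective M)
  obtain ⟨n, hn⟩ := hX.index ((P.subgroupOf M).map (φ.subgroupMap M))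
  have h2 : ((P.subgroupOf M).map (φ.subgroupMap M)) = ⊤ := by
    rw [← Subgroup.index_eq_one, hn]
    rcases n with _ | n
    · rfl
    · exact absurd ((hn ▸ dvd_pow_self s n.succ_ne_zero).trans h1) h.idx
  refine le_antisymm (Subgroup.map_mono h.le) fun x hx => ?_
  obtain ⟨y, hy, e⟩ : (⟨x, hx⟩ : M.map φ) ∈ (P.subgroupOf M).map (φ.subgroupMap M) :=
    h2 ▸ Subgroup.mem_top _
  exact ⟨y, hy, congrArg Subtype.val e⟩

/-- Frattini argument: an `s`-subgroup `X` normalised by `L` lifts to an `s`-subgroup whose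
normaliser covers `L`. -/
theorem exists_lift (φ : Y →* S) (Y0 : Subgroup Y) {L X : Subgroup S} (hX : IsPGroup s X)
    (hXL : X ≤ L) (hN : L ≤ Subgroup.normalizer (X : Set S)) (hL : L ≤ Y0.map φ) :
    ∃ P ≤ Y0, IsPGroup s P ∧ P.map φ = X ∧
      L ≤ (Y0 ⊓ Subgroup.normalizer (P : Set Y)).map φ := by
  set M := Y0 ⊓ X.comap φ with hM
  obtain ⟨P, hP⟩ := H61.SylIn.exists_sylIn (p := s) M
  have hMX : M.map φ = X := by
    refine le_antisymm (Subgroup.map_le_iff_le_comap.2 inf_le_right) fun x hx => ?_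
    obtain ⟨y, hy, rfl⟩ := hL (hXL hx)
    exact ⟨y, ⟨hy, hx⟩, rfl⟩
  have hPX : P.map φ = X := by rw [map_eq_of_sylIn φ hP (hMX ▸ hX), hMX]
  refine ⟨P, hP.le.trans inf_le_left, hP.pgrp, hPX, fun l hl => ?_⟩
  obtain ⟨y, hy, rfl⟩ := hL hl
  have h1 : M.map (MulAut.conj y).toMonoidHom = M := by
    refine Subgroup.mem_normalizer_iff_map_conj_eq.1 ?_
    refine Subgroup.mem_normalizer_iff.2 fun z => ?_
    simp only [hM, Subgroup.mem_inf, Subgroup.mem_comap, map_mul, map_inv]
    rw [← Subgroup.mem_normalizer_iff.1 (hN hl),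
      ← Subgroup.mem_normalizer_iff.1 (Y0.le_normalizer hy)]
  have h2 := hP.map_of_injective (MulAut.conj y).toMonoidHom (MulAut.conj y).injective
  rw [h1] at h2
  obtain ⟨k, hk, e⟩ := hP.exists_conj_eq h2
  obtain ⟨p, hp, hp'⟩ : φ k ∈ P.map φ := hPX ▸ hk.2
  refine ⟨p⁻¹ * (k * y), ⟨Y0.mul_mem (Y0.inv_mem (hP.le hp).1) (Y0.mul_mem hk.1 hy),
    Subgroup.mul_mem _ (Subgroup.inv_mem _ (P.le_normalizer hp)) ?_⟩, by simp [hp']⟩
  refine Subgroup.mem_normalizer_iff_map_conj_eq.2 ?_
  rw [Subgroup.map_map] at e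
  rw [← e]
  congr 1
  ext; simp [mul_assoc]

end Lift

/-- The elements of square one in a homomorphic image of a finite abelian group are at most as many
as those of the group. -/
theorem card_le_of_sq_eq_one {A S : Type*} [CommGroup A] [Finite A] [Group S] (ψ : A →* S)
    (T : Finset S) (h1 : ∀ t ∈ T, t ∈ ψ.range) (h2 : ∀ t ∈ T, t * t = 1) :
    T.card ≤ Nat.card {a : A | a * a = 1} := by
  let L : Subgroup A := (ψ.comp (powMonoidHom 2)).ker
  let χ : L →* S := ψ.comp L.subtype
  have : Finite χ.range := Finite.of_surjective _ χ.rangeRestrict_surjective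
  have e1 : T.card ≤ Nat.card χ.range := by
    rw [← Nat.card_eq_finsetCard]
    refine Nat.card_le_card_of_injective (fun t => ⟨t, ?_⟩) fun a b e => ?_
    · obtain ⟨a, ha⟩ := h1 t t.2
      refine ⟨⟨a, ?_⟩, ha⟩
      simp only [L, MonoidHom.mem_ker, MonoidHom.comp_apply, powMonoidHom_apply, map_pow, ha]
      rw [pow_two, h2 t t.2]
    · exact Subtype.ext (congrArg (fun x : χ.range => (x : S)) e)
  have e2 : (powMonoidHom 2 : L →* L).range ≤ χ.ker := by
    rintro _ ⟨a, rfl⟩
    exact a.2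
  have e3 : Nat.card χ.range ≤ Nat.card (powMonoidHom 2 : L →* L).ker := by
    rw [← Subgroup.index_ker, ← Subgroup.index_range]
    exact Nat.le_of_dvd (Nat.pos_of_ne_zero Subgroup.index_ne_zero_of_finite)
      (Subgroup.index_dvd_of_le e2)
  refine e1.trans (e3.trans (Nat.card_le_card_of_injective (fun a => ⟨(a : L), ?_⟩) fun a b e => ?_))
  · have := congrArg Subtype.val (MonoidHom.mem_ker.1 a.2)
    simpa [pow_two] using this
  · exact Subtype.ext (Subtype.ext (congrArg (fun x : {a : A | a * a = 1} => (x : A)) e))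

end H5
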