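import Mathlib
import Cfsg.Agent.Lib.AltSec.Sec
import Cfsg.Agent.Lib.Chev.Torus
import Cfsg.Agent.Lib.Twist.Group

/-!
# Automisers of subgroups of a split torus, and sections

For a group `Γ` with a Bruhat decomposition inside a group with root elements, the automorphisms
induced on a subgroup of the torus `H` come from the Weyl group.
-/

set_option autoImplicit false
set_option linter.unusedSectionVars false

namespace H5

open H38 Equiv
open scoped commutatorElement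

variable {ι l : Type} [Fintype l] [DecidableEq l] [Finite ι] {R : RS ι l} {K : Type*} [Field K]
  {G : Type*} [Group G]

/-- `Γ` has a Bruhat decomposition with Weyl group `W0`. -/
structure Fus (E : Elts R K G) (Γ : Subgroup G) (W0 : Subgroup (Perm ι)) : Prop where
  faith : E.Faith
  r3 : E.R3
  bruhat : ∀ g ∈ Γ, ∃ v ∈ E.U, ∃ n w, E.Rep n w ∧ w ∈ W0 ∧ ∃ u ∈ E.XS (R.Inv w), g = v * n * u
  mem : ∀ n ∈ Γ, ∀ w, E.Rep n w → w ∈ W0
  surj : ∀ w ∈ W0, ∃ n ∈ Γ, E.Rep n w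

theorem fus_top {E : Elts R K G} (hF : E.Faith) (h3 : E.R3) (ht : E.Gp = ⊤) : Fus E ⊤ R.W where
  faith := hF
  r3 := h3
  bruhat g _ := by
    obtain ⟨b, hb, n, w, hn, u, hu, rfl⟩ := E.bruhat (ht ▸ Subgroup.mem_top g)
    obtain ⟨v, hv, h, hh, rfl⟩ := E.mem_B.mp hb
    have hn' := (E.rep_of_mem_H hh).mul hn
    rw [one_mul] at hn'
    exact ⟨v, hv, h * n, w, hn', hn.mem_W, u, hu, by group⟩
  mem _ _ _ h := h.mem_W
  surj _ hw := let ⟨n, hn⟩ := E.exists_rep_of_mem_W hw; ⟨n, Subgroup.mem_top n, hn⟩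

theorem fus_tw {E : Elts R K G} {T : H39.Tw E} (hT : T.Good) (h3 : E.R3) : Fus E T.Γ T.S.W1 where
  faith := T.hF
  r3 := h3
  bruhat g hg := by
    obtain ⟨v, hv, n, -, w, hw, hn, u, hu, rfl⟩ := T.bruhat hg
    exact ⟨v, hv.1, n, w, hn, hw, u, hu.1, rfl⟩
  mem _ hn _ h := T.mem_W1_of_rep h hn
  surj _ hw := let ⟨n, hn, h⟩ := hT.exists_rep hw; ⟨n, T.G1_le_Γ hn, h⟩

theorem rep_pow {E : Elts R K G} {n : G} {w : Perm ι} (h : E.Rep n w) (k : ℕ) :
    E.Rep (n ^ k) (w ^ k) := by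
  induction k with
  | zero => simpa using E.rep_one
  | succ k ih => rw [pow_succ, pow_succ]; exact ih.mul h

theorem rep_neg_conj {E : Elts R K G} (h3 : E.R3) {n : G} {w : Perm ι} (h : E.Rep n w)
    (hw : ∀ r, w r = R.neg r) {x : G} (hx : x ∈ E.H) : n * x * n⁻¹ = x⁻¹ := by
  have hx' := hx
  rw [E.H_eq_closure_sim] at hx
  induction hx using Subgroup.closure_induction with
  | mem g hg =>
    obtain ⟨i, t, ht, rfl⟩ := hg
    rw [h.conj_h_R3 h3 _ ht, hw]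
    have e1 := Elts.h_eq_tor h3 (R.neg (R.sim i)) (Units.mk0 t ht)
    have e2 := Elts.h_eq_tor h3 (R.sim i) (Units.mk0 t ht)
    simp only [Units.val_mk0] at e1 e2
    rw [e1, e2, ← map_inv]
    congr 1
    ext j
    simp [R.cor_neg]
  | one => simp
  | mul a b ha hb iha ihb =>
    rw [← E.H_eq_closure_sim] at ha hb
    rw [(Elts.H_comm h3 ha hb).eq, mul_inv_rev, ← iha ha, ← ihb hb, ← (Elts.H_comm h3 ha hb).eq]
    group
  | inv a ha iha =>
    rw [← E.H_eq_closure_sim] at ha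
    calc n * a⁻¹ * n⁻¹ = (n * a * n⁻¹)⁻¹ := by group
      _ = _ := by rw [iha ha]

namespace Fus

variable {E : Elts R K G} {Γ : Subgroup G} {W0 : Subgroup (Perm ι)} (hT : Fus E Γ W0)
include hT

theorem exists_rep {g : G} (hg : g ∈ Γ) : ∃ n w, E.Rep n w ∧ w ∈ W0 ∧
    ∀ x ∈ E.H, g * x * g⁻¹ ∈ E.H → g * x * g⁻¹ = n * x * n⁻¹ := by
  obtain ⟨v, hv, n, w, hn, hw, u, hu, rfl⟩ := hT.bruhat g hg
  refine ⟨n, w, hn, hw, fun x a1 a2 => ?_⟩
  have c1 := E.conj_mem_H hn.mem_N a1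
  have := hT.faith.bruhat_unique_bu hn (E.B.mul_mem (E.U_le_B hv) (E.H_le_B c1))
    (E.B.mul_mem (E.H_le_B a2) (E.U_le_B hv)) (E.H_inv_conj_mem_XS a1 hu) hu (by group)
  exact (hT.faith.UH_unique hv (E.H_conj_mem_XS a2 hv) c1 a2 (by rw [this.1]; group)).2.symm

/-- The action of an element normalising a set of torus elements. -/
theorem act {g : G} (hg : g ∈ Γ) {P : Set G} (hP : ∀ x ∈ P, x ∈ E.H)
    (hN : ∀ x ∈ P, g * x * g⁻¹ ∈ P) : ∃ w ∈ W0, ∀ k : ℕ,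
      (w ^ k = 1 → ∀ x ∈ P, g ^ k * x * (g ^ k)⁻¹ = x) ∧
      ((∀ r, (w ^ k) r = R.neg r) → ∀ x ∈ P, g ^ k * x * (g ^ k)⁻¹ = x⁻¹) := by
  obtain ⟨n, w, hn, hw, h⟩ := hT.exists_rep hg
  have key : ∀ k : ℕ, ∀ x ∈ P, g ^ k * x * (g ^ k)⁻¹ = n ^ k * x * (n ^ k)⁻¹ := fun k => by
    induction k with
    | zero => simp
    | succ k ih =>
      intro x hx
      calc g ^ (k + 1) * x * (g ^ (k + 1))⁻¹ = g ^ k * (g * x * g⁻¹) * (g ^ k)⁻¹ := by group
        _ = n ^ k * (n * x * n⁻¹) * (n ^ k)⁻¹ := by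
          rw [ih _ (hN x hx), h x (hP x hx) (hP _ (hN x hx))]
        _ = _ := by group
  refine ⟨w, hw, fun k => ⟨fun e x hx => ?_, fun e x hx => ?_⟩⟩
  · have := rep_pow hn k
    rw [e] at this
    rw [key k x hx, (Elts.H_comm hT.r3 this.mem_H (hP x hx)).eq, mul_inv_cancel_right]
  · rw [key k x hx, rep_neg_conj hT.r3 (rep_pow hn k) e (hP x hx)]

theorem relIndex_N : (E.H ⊓ Γ).relIndex (E.N ⊓ Γ) = Nat.card W0 := by
  let π : ↥(E.N ⊓ Γ) →* Perm ι :=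
    R.W.subtype.comp (hT.faith.toW.comp (Subgroup.inclusion inf_le_left))
  have hπ : ∀ n : ↥(E.N ⊓ Γ), E.Rep n (π n) := fun n =>
    hT.faith.rep_toW (Subgroup.inclusion inf_le_left n)
  have h1 : π.range = W0 := by
    refine le_antisymm ?_ fun w hw => ?_
    · rintro _ ⟨n, rfl⟩
      exact hT.mem n n.2.2 _ (hπ n)
    · obtain ⟨n, hn, h⟩ := hT.surj w hw
      exact ⟨⟨n, h.mem_N, hn⟩, hT.faith.rep_unique (hπ _) h⟩
  have h2 : π.ker = (E.H ⊓ Γ).subgroupOf (E.N ⊓ Γ) := by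
    ext n
    rw [MonoidHom.mem_ker, Subgroup.mem_subgroupOf]
    exact ⟨fun e => ⟨(e ▸ hπ n).mem_H, n.2.2⟩,
      fun e => hT.faith.rep_unique (hπ n) (E.rep_of_mem_H e.1)⟩
  rw [Subgroup.relIndex, ← h2, Subgroup.index_ker, h1]

end Fus

section Conj

variable [Finite G] {s : ℕ} [Fact s.Prime]

omit [Finite ι] in
/-- An `s`-subgroup can be conjugated into a subgroup of index prime to `s`. -/
theorem exists_conj_into {A C Γ P : Subgroup G} (h1 : A ≤ C) (h2 : C ≤ Γ)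
    (hs : ¬ s ∣ A.relIndex Γ) (hP : IsPGroup s P) (hPC : P ≤ C) :
    ∃ c ∈ C, ∀ x ∈ P, c * x * c⁻¹ ∈ A := by
  obtain ⟨Q, hQ⟩ := H61.SylIn.exists_sylIn (p := s) A
  obtain ⟨c, hc, h⟩ := ((hQ.of_trans (h1.trans h2) hs).mono (hQ.le.trans h1) h2).exists_conj hP hPC
  exact ⟨c, hc, fun x hx => hQ.le (h x hx)⟩

end Conj

theorem mem_normalizer_zpowers {S : Type*} [Group S] {x y : S} (hx : IsOfFinOrder x) {a : ℕ}
    (h : y * x * y⁻¹ = x ^ a) : y ∈ Subgroup.normalizer (Subgroup.zpowers x : Set S) := by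
  have : Finite (Subgroup.zpowers x : Set S) := hx.finite_zpowers
  refine Subgroup.mem_normalizer_fintype ?_
  rintro _ ⟨k, rfl⟩
  rw [← conj_zpow, h]
  exact zpow_mem (pow_mem (Subgroup.mem_zpowers x) a) k

namespace Fus

variable {E : Elts R K G} {Γ : Subgroup G} {W0 : Subgroup (Perm ι)} (hT : Fus E Γ W0)
  [Finite G] {Y S : Type*} [Group Y] [Group S]
include hT

/-- The action on a subgroup mapped into the torus. -/
theorem act_hom (j : Y →* G) (hj : Function.Injective j) (hΓ : ∀ y, j y ∈ Γ) {P : Set Y}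
    (hP : ∀ x ∈ P, j x ∈ E.H) {g : Y} (hN : ∀ x ∈ P, g * x * g⁻¹ ∈ P) : ∃ w ∈ W0, ∀ k : ℕ,
      (w ^ k = 1 → ∀ x ∈ P, g ^ k * x * (g ^ k)⁻¹ = x) ∧
      ((∀ r, (w ^ k) r = R.neg r) → ∀ x ∈ P, g ^ k * x * (g ^ k)⁻¹ = x⁻¹) := by
  obtain ⟨w, hw, h⟩ := hT.act (hΓ g) (P := j '' P) (by rintro _ ⟨x, hx, rfl⟩; exact hP x hx)
    (by rintro _ ⟨x, hx, rfl⟩; exact ⟨_, hN x hx, by simp⟩)
  exact ⟨w, hw, fun k => ⟨fun e x hx => hj (by simpa using (h k).1 e _ ⟨x, hx, rfl⟩),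
    fun e x hx => hj (by simpa using (h k).2 e _ ⟨x, hx, rfl⟩)⟩⟩

/-- One prime: the automiser of a subgroup of order `s` in a section. -/
theorem single {s : ℕ} [Fact s.Prime] (hs : ¬ s ∣ (E.H ⊓ Γ).relIndex Γ) (j : Y →* G)
    (hj : Function.Injective j) (hΓ : ∀ y, j y ∈ Γ) (φ : Y →* S) {x y : S} (hx : x ∈ φ.range)
    (hy : y ∈ φ.range) (hxs : orderOf x = s) {a : ℕ} (hxy : y * x * y⁻¹ = x ^ a) :
    ∃ w ∈ W0, ∀ k : ℕ, w ^ k = 1 → y ^ k * x * (y ^ k)⁻¹ = x := by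
  have : Finite Y := Finite.of_injective j hj
  have hp : s.Prime := Fact.out
  have hX : IsPGroup s (Subgroup.zpowers x) :=
    IsPGroup.of_card (n := 1) (by rw [Nat.card_zpowers, hxs, pow_one])
  obtain ⟨P, -, hP, hPX, hL⟩ := exists_lift φ ⊤ hX
    (L := φ.range ⊓ Subgroup.normalizer (Subgroup.zpowers x : Set S))
    (le_inf (Subgroup.zpowers_le.2 hx) Subgroup.le_normalizer) inf_le_right
    (by rw [← MonoidHom.range_eq_map]; exact inf_le_left)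
  obtain ⟨g, hg, rfl⟩ := hL ⟨hy, mem_normalizer_zpowers
    (orderOf_pos_iff.1 (hxs ▸ hp.pos)) hxy⟩
  obtain ⟨c, hc, h⟩ := exists_conj_into (A := E.H ⊓ Γ) inf_le_right le_rfl hs (hP.map j)
    (by rintro _ ⟨z, -, rfl⟩; exact hΓ z)
  obtain ⟨w, hw, h'⟩ := hT.act_hom ((MulAut.conj c).toMonoidHom.comp j)
    ((MulAut.conj c).injective.comp hj) (fun y => Γ.mul_mem (Γ.mul_mem hc (hΓ y)) (Γ.inv_mem hc))
    (P := P) (fun z hz => (h _ ⟨z, hz, rfl⟩).1)
    (fun z hz => (Subgroup.mem_normalizer_iff.1 hg.2 z).1 hz)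
  refine ⟨w, hw, fun k e => ?_⟩
  obtain ⟨z, hz, rfl⟩ : x ∈ P.map φ := hPX ▸ Subgroup.mem_zpowers x
  simpa using congrArg φ ((h' k).1 e z hz)

/-- Two primes: the automiser of a cyclic subgroup of order `s t` in a section. -/
theorem double {s t : ℕ} [Fact s.Prime] [Fact t.Prime] (hs : ¬ s ∣ (E.H ⊓ Γ).relIndex Γ)
    (ht : ¬ t ∣ (E.H ⊓ Γ).relIndex Γ) (ht' : ¬ t ∣ Nat.card W0) (j : Y →* G)
    (hj : Function.Injective j) (hΓ : ∀ y, j y ∈ Γ) (φ : Y →* S) {x z y : S} (hx : x ∈ φ.range)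
    (hz : z ∈ φ.range) (hy : y ∈ φ.range) (hxs : orderOf x = s) (hzt : orderOf z = t)
    (hxz : z * x * z⁻¹ = x) {a b : ℕ} (hxy : y * x * y⁻¹ = x ^ a) (hzy : y * z * y⁻¹ = z ^ b) :
    ∃ w ∈ W0, ∀ k : ℕ, (w ^ k = 1 → y ^ k * x * (y ^ k)⁻¹ = x ∧ y ^ k * z * (y ^ k)⁻¹ = z) ∧
      ((∀ r, (w ^ k) r = R.neg r) → y ^ k * z * (y ^ k)⁻¹ = z⁻¹) := by
  have : Finite Y := Finite.of_injective j hj
  have hp : s.Prime := Fact.out
  have hq : t.Prime := Fact.out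
  have hX : IsPGroup s (Subgroup.zpowers x) :=
    IsPGroup.of_card (n := 1) (by rw [Nat.card_zpowers, hxs, pow_one])
  have hZ : IsPGroup t (Subgroup.zpowers z) :=
    IsPGroup.of_card (n := 1) (by rw [Nat.card_zpowers, hzt, pow_one])
  have fx := orderOf_pos_iff.1 (hxs ▸ hp.pos)
  obtain ⟨P, -, hP, hPX, hL⟩ := exists_lift φ ⊤ hX
    (L := φ.range ⊓ Subgroup.normalizer (Subgroup.zpowers x : Set S))
    (le_inf (Subgroup.zpowers_le.2 hx) Subgroup.le_normalizer) inf_le_right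
    (by rw [← MonoidHom.range_eq_map]; exact inf_le_left)
  rw [top_inf_eq] at hL
  obtain ⟨Q, hQP, hQ, hQZ, hL'⟩ := exists_lift φ (Subgroup.normalizer (P : Set Y)) hZ
    (L := (Subgroup.normalizer (P : Set Y)).map φ ⊓
      Subgroup.normalizer (Subgroup.zpowers z : Set S))
    (le_inf (Subgroup.zpowers_le.2 (hL ⟨hz, mem_normalizer_zpowers fx (a := 1) (by simpa using hxz)⟩))
      Subgroup.le_normalizer) inf_le_right inf_le_left
  obtain ⟨g, hg, rfl⟩ := hL' ⟨hL ⟨hy, mem_normalizer_zpowers fx hxy⟩,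
    mem_normalizer_zpowers (orderOf_pos_iff.1 (hzt ▸ hq.pos)) hzy⟩
  obtain ⟨c, hc, h⟩ := exists_conj_into (A := E.H ⊓ Γ) inf_le_right le_rfl hs (hP.map j)
    (by rintro _ ⟨z, -, rfl⟩; exact hΓ z)
  set j1 := (MulAut.conj c).toMonoidHom.comp j with hj1
  have i1 : Function.Injective j1 := (MulAut.conj c).injective.comp hj
  have m1 : ∀ y, j1 y ∈ Γ := fun y => Γ.mul_mem (Γ.mul_mem hc (hΓ y)) (Γ.inv_mem hc)
  have p1 : ∀ u ∈ P, j1 u ∈ E.H := fun u hu => (h _ ⟨u, hu, rfl⟩).1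
  have hcomm : ∀ v ∈ Q, ∀ u ∈ P, v * u * v⁻¹ = u := fun v hv u hu => by
    obtain ⟨w, hw, h'⟩ := hT.act_hom j1 i1 m1 (P := P) p1
      (fun z hz => (Subgroup.mem_normalizer_iff.1 (hQP hv) z).1 hz)
    have e1 := (h' (Nat.card W0)).1 
      (congrArg Subtype.val (pow_card_eq_one' (x := (⟨w, hw⟩ : W0)))) u hu
    obtain ⟨m, hm⟩ := hQ ⟨v, hv⟩
    have e2 : v ^ t ^ m = 1 := by simpa using congrArg Subtype.val hm
    have e3 : v ∈ Subgroup.zpowers (v ^ Nat.card W0) := by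
      refine (mem_zpowers_pow_iff).2 ?_
      refine Nat.Coprime.coprime_dvd_right (orderOf_dvd_of_pow_eq_one e2) ?_
      exact ((hq.coprime_iff_not_dvd.2 ht').symm.pow_right m)
    obtain ⟨i, hi⟩ := e3
    have e4 : Commute (v ^ Nat.card W0) u := by
      rw [Commute, SemiconjBy]; conv_rhs => rw [← e1]
      group
    have e5 : Commute v u := by simpa [hi] using e4.zpow_left i
    rw [e5.eq, mul_inv_cancel_right]
  obtain ⟨d, hd, h2⟩ := exists_conj_into (A := E.H ⊓ Γ)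
    (C := Γ ⊓ Subgroup.centralizer (j1 '' P)) (le_inf inf_le_right fun v hv => by
      rintro _ ⟨u, hu, rfl⟩
      exact (Elts.H_comm hT.r3 (p1 u hu) hv.1).eq) inf_le_left ht (hQ.map j1)
    (by
      rintro _ ⟨v, hv, rfl⟩
      refine ⟨m1 v, ?_⟩
      rintro _ ⟨u, hu, rfl⟩
      rw [← map_mul, ← map_mul]
      congr 1
      conv_lhs => rw [← hcomm v hv u hu]
      group)
  obtain ⟨w, hw, h'⟩ := hT.act_hom ((MulAut.conj d).toMonoidHom.comp j1)
    ((MulAut.conj d).injective.comp i1)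
    (fun y => Γ.mul_mem (Γ.mul_mem hd.1 (m1 y)) (Γ.inv_mem hd.1)) (P := (P : Set Y) ∪ Q)
    (by
      rintro u (hu | hu)
      · have := hd.2 _ ⟨u, hu, rfl⟩
        change d * j1 u * d⁻¹ ∈ _
        rw [← this, mul_inv_cancel_right]
        exact p1 u hu
      · exact (h2 _ ⟨u, hu, rfl⟩).1) (g := g)
    (by
      rintro u (hu | hu)
      · exact Or.inl ((Subgroup.mem_normalizer_iff.1 hg.1 u).1 hu)
      · exact Or.inr ((Subgroup.mem_normalizer_iff.1 hg.2 u).1 hu))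
  obtain ⟨u, hu, rfl⟩ : x ∈ P.map φ := hPX ▸ Subgroup.mem_zpowers x
  obtain ⟨v, hv, rfl⟩ : z ∈ Q.map φ := hQZ ▸ Subgroup.mem_zpowers z
  refine ⟨w, hw, fun k => ⟨fun e => ⟨?_, ?_⟩, fun e => ?_⟩⟩
  · simpa using congrArg φ ((h' k).1 e u (Or.inl hu))
  · simpa using congrArg φ ((h' k).1 e v (Or.inr hv))
  · simpa using congrArg φ ((h' k).2 e v (Or.inr hv))

end Fus

/-- Generators of a Sylow 2-subgroup of `A₈`. -/
def g8 : Fin 3 → Perm (Fin 8) :=
  ![swap 2 6 * swap 3 7, swap 1 3 * swap 5 7, swap 0 1 * swap 2 3 * (swap 4 5 * swap 6 7)]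

/-- Words for the elements of a Sylow 2-subgroup of `A₈`. -/
def w8 : List (List (Fin 3)) :=
  [[], [0], [1], [2], [1, 0], [2, 0], [0, 1], [2, 1], [1, 2], [0, 1, 0], [2, 1, 0], [1, 2, 0], [1,
  0, 1], [2, 0, 1], [1, 2, 1], [0, 1, 2], [2, 1, 2], [1, 0, 1, 0], [2, 0, 1, 0], [1, 2, 1, 0], [0,
  1, 2, 0], [2, 1, 2, 0], [2, 1, 0, 1], [1, 2, 0, 1], [0, 1, 2, 1], [2, 1, 2, 1], [1, 0, 1, 2],
  [2, 0, 1, 2], [2, 1, 0, 1, 0], [1, 2, 0, 1, 0], [0, 1, 2, 1, 0], [2, 1, 2, 1, 0], [1, 0, 1, 2,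
  0], [2, 0, 1, 2, 0], [1, 2, 1, 0, 1], [0, 1, 2, 0, 1], [2, 1, 2, 0, 1], [1, 0, 1, 2, 1], [2, 0,
  1, 2, 1], [2, 1, 0, 1, 2], [1, 2, 0, 1, 2], [1, 2, 1, 0, 1, 0], [0, 1, 2, 0, 1, 0], [2, 1, 2, 0,
  1, 0], [1, 0, 1, 2, 1, 0], [2, 0, 1, 2, 1, 0], [2, 1, 0, 1, 2, 0], [1, 2, 0, 1, 2, 0], [0, 1, 2,
  1, 0, 1], [2, 1, 2, 1, 0, 1], [1, 0, 1, 2, 0, 1], [2, 1, 0, 1, 2, 1], [1, 2, 0, 1, 2, 1], [1, 2,
  1, 0, 1, 2], [0, 1, 2, 1, 0, 1, 0], [2, 1, 2, 1, 0, 1, 0], [1, 0, 1, 2, 0, 1, 0], [2, 1, 0, 1,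
  2, 1, 0], [1, 2, 0, 1, 2, 1, 0], [1, 2, 1, 0, 1, 2, 0], [1, 0, 1, 2, 1, 0, 1], [1, 2, 1, 0, 1,
  2, 1], [1, 0, 1, 2, 1, 0, 1, 0], [1, 2, 1, 0, 1, 2, 1, 0]]

theorem w8_closed : ∀ w ∈ w8, ((w.map g8).prod ^ 4 = 1 ∧ ∀ i,
    g8 i * (w.map g8).prod ∈ w8.map fun w => (w.map g8).prod) := by decide +kernel

theorem isPGroup_g8 : IsPGroup 2 (Subgroup.closure (Set.range g8)) := by
  have key : ∀ x ∈ Subgroup.closure (Set.range g8), x ∈ w8.map fun w => (w.map g8).prod := by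
    have step : ∀ i, ∀ x ∈ w8.map fun w => (w.map g8).prod,
        g8 i * x ∈ w8.map fun w => (w.map g8).prod := fun i x hx => by
      obtain ⟨w, hw, rfl⟩ := List.mem_map.1 hx
      exact (w8_closed w hw).2 i
    intro x hx
    induction hx using Subgroup.closure_induction_left with
    | one => exact List.mem_map.2 ⟨[], by decide, rfl⟩
    | mul_left x hx y _ ih => obtain ⟨i, rfl⟩ := hx; exact step i y ih
    | inv_mul_cancel x hx y _ ih =>
      obtain ⟨i, rfl⟩ := hx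
      rw [show (g8 i)⁻¹ = g8 i by revert i; decide]
      exact step i y ih
  intro x
  obtain ⟨w, hw, e⟩ := List.mem_map.1 (key x x.2)
  exact ⟨2, Subtype.ext (by simpa [e] using (w8_closed w hw).1)⟩

namespace Fus

variable {E : Elts R K G} {Γ : Subgroup G} {W0 : Subgroup (Perm ι)} (hT : Fus E Γ W0) [Finite G]
include hT

/-- Rank two, Weyl group of order 12, odd characteristic: `A₈` is not a section. -/
theorem not_alt_eight (h8 : ¬ 8 ∣ (E.H ⊓ Γ).relIndex Γ) (hW : Nat.card W0 = 12)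
    {A : Type*} [CommGroup A] [Finite A] (τ : A →* G) (hτ : E.H ⊓ Γ ≤ τ.range)
    (hA : Nat.card {a : A | a * a = 1} ≤ 4) {Y : Type*} [Group Y] (j : Y →* G)
    (hj : Function.Injective j) (hΓ : ∀ y, j y ∈ Γ) (φ : Y →* Perm (Fin 8))
    (hφ : φ.range = alternatingGroup (Fin 8)) : False := by
  have : Finite Y := Finite.of_injective j hj
  have h2 : ¬ 2 ∣ (E.N ⊓ Γ).relIndex Γ := fun ⟨m, hm⟩ => h8 (by
    rw [← Subgroup.relIndex_mul_relIndex _ (E.N ⊓ Γ) Γ (inf_le_inf_right _ E.H_le_N) inf_le_right,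
      hT.relIndex_N, hW, hm]
    exact ⟨3 * m, by ring⟩)
  obtain ⟨P, -, hP, hPX, -⟩ := exists_lift φ ⊤ isPGroup_g8 le_rfl Subgroup.le_normalizer (by
    rw [← MonoidHom.range_eq_map, hφ, Subgroup.closure_le]
    rintro _ ⟨i, rfl⟩
    revert i
    simp only [SetLike.mem_coe, Perm.mem_alternatingGroup]
    decide)
  obtain ⟨c, hc, h⟩ := exists_conj_into (A := E.N ⊓ Γ) inf_le_right le_rfl h2 (hP.map j)
    (by rintro _ ⟨z, -, rfl⟩; exact hΓ z)
  set j1 := (MulAut.conj c).toMonoidHom.comp j with hj1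
  have i1 : Function.Injective j1 := (MulAut.conj c).injective.comp hj
  have p1 : ∀ u ∈ P, j1 u ∈ E.N ⊓ Γ := fun u hu => h _ ⟨u, hu, rfl⟩
  let π : P →* R.W := hT.faith.toW.comp ((j1.comp P.subtype).codRestrict E.N fun u => (p1 u u.2).1)
  have hπ : ∀ u : P, E.Rep (j1 u) (π u) := fun u => hT.faith.rep_toW ⟨j1 u, (p1 u u.2).1⟩
  let π' : P →* W0 := (R.W.subtype.comp π).codRestrict W0 fun u => hT.mem _ (p1 u u.2).2 _ (hπ u)
  have hc' : ∀ u v : P, π' u * π' v = π' v * π' u := by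
    have : Finite W0 := Nat.finite_of_card_ne_zero (by omega)
    have hr : IsPGroup 2 π'.range := hP.of_surjective _ π'.rangeRestrict_surjective
    obtain ⟨m, hm⟩ := hr.exists_card_eq
    have hd : 2 ^ m ∣ 12 := hm ▸ hW ▸ Subgroup.card_subgroup_dvd_card _
    have hm2 : m ≤ 2 := by
      by_contra hlt
      exact absurd ((pow_dvd_pow 2 (show 3 ≤ m by omega)).trans hd) (by decide)
    have hcm : IsMulCommutative π'.range := by
      interval_cases m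
      · have := (Nat.card_eq_one_iff_unique.1 hm).1
        exact ⟨⟨fun a b => Subsingleton.elim _ _⟩⟩
      · have := isCyclic_of_prime_card (p := 2) hm
        infer_instance
      · exact IsPGroup.isMulCommutative_of_card_eq_prime_sq hm
    intro u v
    exact congrArg Subtype.val (hcm.is_comm.comm (⟨_, u, rfl⟩ : π'.range) ⟨_, v, rfl⟩)
  have hH : ∀ u ∈ P, ∀ v ∈ P, j1 ⁅u, v⁆ ∈ E.H ⊓ Γ := fun u hu v hv => by
    have e : π' ⁅(⟨u, hu⟩ : P), ⟨v, hv⟩⁆ = 1 := by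
      rw [map_commutatorElement, commutatorElement_eq_one_iff_mul_comm, hc']
    have e' : (π ⁅(⟨u, hu⟩ : P), ⟨v, hv⟩⁆ : Perm ι) = 1 := congrArg Subtype.val e
    exact ⟨(e' ▸ hπ _).mem_H, (p1 _ (⁅(⟨u, hu⟩ : P), (⟨v, hv⟩ : P)⁆).2).2⟩
  let A' : Subgroup A := j1.range.comap τ
  let ψ : A' →* Perm (Fin 8) := φ.comp ((MonoidHom.ofInjective i1).symm.toMonoidHom.comp
    ((τ.comp A'.subtype).codRestrict j1.range fun a => a.2))
  have hψ : ∀ x ∈ Subgroup.closure (Set.range g8), ∀ y ∈ Subgroup.closure (Set.range g8),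
      ⁅x, y⁆ ∈ ψ.range := fun x hx y hy => by
    rw [← hPX] at hx hy
    obtain ⟨u, hu, rfl⟩ := hx
    obtain ⟨v, hv, rfl⟩ := hy
    obtain ⟨a, ha⟩ := hτ (hH u hu v hv)
    refine ⟨⟨a, _, ha.symm⟩, ?_⟩
    rw [← map_commutatorElement]
    refine congrArg φ ((MonoidHom.ofInjective i1).symm_apply_eq.2 (Subtype.ext ha))
  have g : ∀ i, g8 i ∈ Subgroup.closure (Set.range g8) := fun i => Subgroup.subset_closure ⟨i, rfl⟩
  have c1 := hψ _ (g 0) _ (g 1)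
  have c2 := hψ _ (g 1) _ (g 2)
  have c3 := hψ _ (g 0) ⁅g8 1, g8 2⁆ (mul_mem (mul_mem (mul_mem (g 1) (g 2)) (inv_mem (g 1)))
    (inv_mem (g 2)))
  have := card_le_of_sq_eq_one ψ {1, ⁅g8 0, g8 1⁆, ⁅g8 1, g8 2⁆, ⁅g8 0, ⁅g8 1, g8 2⁆⁆,
    ⁅g8 1, g8 2⁆ * ⁅g8 0, ⁅g8 1, g8 2⁆⁆} (by
      simp only [Finset.mem_insert, Finset.mem_singleton]
      rintro _ (rfl | rfl | rfl | rfl | rfl)
      exacts [one_mem _, c1, c2, c3, mul_mem c2 c3]) (by
      simp only [Finset.mem_insert, Finset.mem_singleton]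
      rintro _ (rfl | rfl | rfl | rfl | rfl) <;> decide +kernel)
  have h5 : Finset.card {1, ⁅g8 0, g8 1⁆, ⁅g8 1, g8 2⁆, ⁅g8 0, ⁅g8 1, g8 2⁆⁆,
    ⁅g8 1, g8 2⁆ * ⁅g8 0, ⁅g8 1, g8 2⁆⁆} = 5 := by decide +kernel
  have h4 : Nat.card {a : A' | a * a = 1} ≤ Nat.card {a : A | a * a = 1} :=
    Nat.card_le_card_of_injective (fun a => ⟨a.1, congrArg Subtype.val a.2⟩) fun a b e =>
      Subtype.ext (Subtype.ext (congrArg (fun x : {a : A | a * a = 1} => (x : A)) e))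
  omega

end Fus

/-- The index of the torus modulo a divisor of `q - 1`. -/
theorem relIndex_H_modEq {E : Elts R K G} (hF : E.Faith) (ht : E.Gp = ⊤) [Finite G] [Finite K]
    {M : ℕ} (hq : Nat.card K ≡ 1 [MOD M]) : (E.H ⊓ ⊤).relIndex ⊤ ≡ Nat.card R.W [MOD M] := by
  have h1 := hF.card_Gp
  rw [ht, Subgroup.card_top, ← E.H.card_mul_index, mul_comm _ (Nat.card E.H), mul_assoc] at h1
  rw [inf_top_eq, Subgroup.relIndex_top_right, Nat.eq_of_mul_eq_mul_left Nat.card_pos h1,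
    ← ZMod.natCast_eq_natCast_iff]
  have e : (Nat.card K : ZMod M) = 1 := by simpa using (ZMod.natCast_eq_natCast_iff _ _ _).2 hq
  have := Fintype.ofFinite R.W
  simp [finsum_eq_sum_of_fintype, e]

/-- Every element of the Coxeter group of type `G₂` has order dividing six. -/
theorem pow_six_G2 {W : Type*} [Group W] (cs : CoxeterSystem CoxeterMatrix.G₂ W) (w : W) :
    w ^ 6 = 1 := by
  set a := cs.simple 0
  set b := cs.simple 1
  have ha : a * a = 1 := cs.simple_mul_simple_self 0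
  have hb : b * b = 1 := cs.simple_mul_simple_self 1
  have ha' : a⁻¹ = a := inv_eq_of_mul_eq_one_right ha
  have hb' : b⁻¹ = b := inv_eq_of_mul_eq_one_right hb
  have hab : (a * b) ^ 6 = 1 := cs.simple_mul_simple_pow 0 1
  have hc : ∀ k : ℤ, a * (a * b) ^ k = (a * b) ^ (-k) * a := fun k => by
    have : a * (a * b) * a⁻¹ = (a * b)⁻¹ := by rw [mul_inv_rev, ha', hb', ← mul_assoc, ha, one_mul]
    rw [zpow_neg, ← inv_zpow, ← this, conj_zpow, inv_mul_cancel_right]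
  have key : ∃ k : ℤ, w = (a * b) ^ k ∨ w = (a * b) ^ k * a := by
    induction w using cs.simple_induction_left with
    | one => exact ⟨0, Or.inl (by simp)⟩
    | mul_simple_left w i ih =>
      obtain ⟨k, hk⟩ := ih
      have e0 : ∃ k : ℤ, a * w = (a * b) ^ k ∨ a * w = (a * b) ^ k * a := by
        rcases hk with rfl | rfl
        · exact ⟨-k, Or.inr (hc k)⟩
        · exact ⟨-k, Or.inl (by rw [← mul_assoc, hc, mul_assoc, ha, mul_one])⟩
      fin_cases i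
      · exact e0
      · obtain ⟨k, hk⟩ := e0
        have : b * w = (a * b) ^ (-1 : ℤ) * (a * w) := by
          rw [zpow_neg_one, mul_inv_rev, ha', hb', mul_assoc, ← mul_assoc a, ha, one_mul]
        refine ⟨-1 + k, ?_⟩
        change b * w = _ ∨ b * w = _
        rw [this, zpow_add]
        rcases hk with hk | hk <;> rw [hk]
        · exact Or.inl rfl
        · exact Or.inr (mul_assoc _ _ _).symm
  obtain ⟨k, rfl | rfl⟩ := key
  · rw [← zpow_natCast, ← zpow_mul, mul_comm k, zpow_mul, zpow_natCast, hab, one_zpow]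
  · have : ((a * b) ^ k * a) ^ 2 = 1 := by
      rw [pow_two, mul_assoc, ← mul_assoc a, hc, mul_assoc, ha, mul_one, ← zpow_add]; simp
    rw [show 6 = 2 * 3 from rfl, pow_mul, this, one_pow]

/-- A finite extension whose order is `1` modulo a given number prime to the characteristic. -/
theorem exists_ext (F : Type*) [Field F] [Finite F] (p : ℕ) [Fact p.Prime] [CharP F p] {M : ℕ}
    (hM : M.Coprime p) (h0 : M ≠ 0) : ∃ (K : Type) (_ : Field K) (_ : Finite K) (_ : F →+* K),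
      Nat.card K ≡ 1 [MOD M] := by
  have : NeZero M.totient := ⟨(Nat.totient_pos.2 (Nat.pos_of_ne_zero h0)).ne'⟩
  refine ⟨FiniteField.Extension F p M.totient, inferInstance, inferInstance, algebraMap _ _, ?_⟩
  rw [FiniteField.natCard_extension]
  have := Fintype.ofFinite F
  obtain ⟨n, -, hn⟩ := FiniteField.card F p
  rw [Nat.card_eq_fintype_card, hn]
  exact Nat.ModEq.pow_totient (hM.symm.pow_left _)

end H5
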