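import Mathlib
import Cfsg.Agent.Lib.AltSec.Tor
import Cfsg.Agent.Lib.Chev.Main
import Cfsg.Agent.Lib.ChevMat.FieldMap
import Cfsg.Agent.Lib.ChevMat.Main
import Cfsg.Agent.Lib.Weyl.PoinW

/-!
# Alternating sections of the tabulated Chevalley groups: reduction to a split torus
-/

set_option autoImplicit false

namespace H5

open H38 Equiv Cfsg Cfsg.Lie

theorem card_sq_le_four {A K : Type*} [CommGroup A] [Field K] (f g : A →* Kˣ)
    (h : ∀ a, f a = 1 → g a = 1 → a = 1) : Nat.card {a : A | a * a = 1} ≤ 4 := by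
  classical
  have key : ∀ (f : A →* Kˣ) (a b : A), a * a = 1 → b * b = 1 → (f a = 1 ↔ f b = 1) →
      f (a * b⁻¹) = 1 := fun f a b ha hb e => by
    have h1 : ∀ a : A, a * a = 1 → f a = 1 ∨ f a = -1 := fun a ha => by
      have : (f a : K) * f a = 1 := by rw [← Units.val_mul, ← map_mul, ha]; simp
      rcases mul_self_eq_one_iff.1 this with h | h
      · exact Or.inl (Units.ext h)
      · exact Or.inr (Units.ext h)
    rw [map_mul, map_inv, mul_inv_eq_one]
    by_cases h2 : f a = 1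
    · rw [h2, e.1 h2]
    · rw [(h1 a ha).resolve_left h2, (h1 b hb).resolve_left fun h => h2 (e.2 h)]
  refine (Nat.card_le_card_of_injective (β := Bool × Bool)
    (fun a => (decide (f a.1 = 1), decide (g a.1 = 1))) fun a b e => ?_).trans (by simp)
  simp only [Prod.mk.injEq, decide_eq_decide] at e
  exact Subtype.ext (mul_inv_eq_one.1 (h _ (key f _ _ a.2 b.2 e.1) (key g _ _ a.2 b.2 e.2)))

variable {D : ChevalleyDatum} (hD : D ∈ [chevG2, chevB2, chevD4, chevF4, chevE6, chevE7, chevE8])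
include hD

/-- Passing to a larger field. -/
theorem exists_split {F : Type*} [Field F] [Finite F] (p : ℕ) [Fact p.Prime] [CharP F p] {M m : ℕ}
    (hM : M.Coprime p) (h0 : M ≠ 0) (h : AltSec (D.group F) m) :
    ∃ (K : Type) (_ : Field K) (_ : Finite K) (R : RootSys D) (E : Elts R.toRS K (D.group K)),
      Nat.card K ≡ 1 [MOD M] ∧ Fus E ⊤ R.W ∧ (E.H ⊓ ⊤).relIndex ⊤ ≡ Nat.card R.W [MOD M] ∧
      AltSec (D.group K) m := by
  obtain ⟨K, _, _, f, hK⟩ := exists_ext F p hM h0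
  obtain ⟨R, E, hE⟩ := exists_isMat hD K
  exact ⟨K, _, ‹_›, R, hE.grp, hK, fus_top hE.grp_faith hE.grp_R3 hE.grp_top,
    relIndex_H_modEq hE.grp_faith hE.grp_top hK,
    h.map ((H37.tab hD).fieldMap f) ((H37.tab hD).fieldMap_injective f)⟩

theorem chev_single {F : Type*} [Field F] [Finite F] (p : ℕ) [Fact p.Prime] [CharP F p] {s m : ℕ}
    [Fact s.Prime] (hsp : p ≠ s) (hW : ∀ R : RootSys D, ¬ s ∣ Nat.card R.W)
    (h : AltSec (D.group F) m) {x y : Perm (Fin m)} (hx : Perm.sign x = 1) (hy : Perm.sign y = 1)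
    (hxs : orderOf x = s) {a : ℕ} (hxy : y * x * y⁻¹ = x ^ a) :
    ∃ R : RootSys D, ∃ w ∈ R.W, ∀ k : ℕ, w ^ k = 1 → y ^ k * x * (y ^ k)⁻¹ = x := by
  have hs : s.Prime := Fact.out
  obtain ⟨K, _, _, R, E, -, hT, hi, Y, φ, hφ⟩ := exists_split hD p
    ((Nat.coprime_primes hs Fact.out).2 hsp.symm) hs.ne_zero h
  exact ⟨R, hT.single (fun h => hW R ((hi.dvd_iff dvd_rfl).1 h)) Y.subtype Y.subtype_injective
    (fun _ => Subgroup.mem_top _) φ (hφ ▸ hx) (hφ ▸ hy) hxs hxy⟩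

end H5
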