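import Mathlib
import Cfsg.Agent.Lib.AltSec.Chev
import Cfsg.Agent.Lib.Twist.F4
import Cfsg.Agent.Lib.Twist.D4

/-!
# Alternating sections of the twisted groups of relative rank two
-/

set_option autoImplicit false

namespace H5

open H38 H39 Equiv

variable {ι : Type} [Finite ι] {R : RS ι (Fin 4)} {K : Type*} [Field K] [Fintype K]
  {G : Type*} [Group G] [Finite G] {E : Elts R K G} {T : Tw E} {Y : Type*} [Group Y]

theorem not_alt_seven_F4 {e m : ℕ} (hT : IsF4 T e) (hK : Fintype.card K = 2 ^ m) (j : Y →* G)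
    (hj : Function.Injective j) (hΓ : ∀ y, j y ∈ T.Γ) (φ : Y →* Perm (Fin 7))
    (hφ : φ.range = alternatingGroup (Fin 7)) : False := by
  have k7 : ∀ a : ZMod 7, a ^ 12 * (a - 1) * (a ^ 3 + 1) * (a ^ 4 - 1) * (a ^ 6 + 1) = 0 →
      a ^ 3 = 1 → ¬a ^ 12 * ((a + 1) * (a ^ 2 + 1)) * (a ^ 3 + 1) * (a ^ 6 + 1) = 0 := by decide
  have : Fact (Nat.Prime 7) := ⟨by decide⟩
  have hq1 : 1 < Fintype.card K := Fintype.one_lt_card
  let x : Perm (Fin 7) := c[0, 1, 2, 3, 4, 5, 6]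
  have hx : orderOf x = 7 := orderOf_eq_prime (by decide +kernel) (by decide)
  have hxm : x ∈ φ.range := hφ ▸ (show Perm.sign x = 1 by decide)
  have h7 : 7 ∣ Nat.card T.Γ := by
    have h1 : Nat.card Y ∣ Nat.card T.Γ := by
      rw [Nat.card_congr (MonoidHom.ofInjective hj).toEquiv]
      exact Subgroup.card_dvd_of_le (by rintro _ ⟨y, rfl⟩; exact hΓ y)
    exact (hx.symm.dvd.trans (φ.range.orderOf_dvd_natCard hxm)).trans
      ((Subgroup.card_range_dvd φ).trans h1)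
  set q := Fintype.card K with hq
  have hi : (E.H ⊓ T.Γ).relIndex T.Γ =
      q ^ 12 * ((q + 1) * (q ^ 2 + 1)) * (q ^ 3 + 1) * (q ^ 6 + 1) := by
    have h1 := Subgroup.relIndex_mul_relIndex ⊥ (E.H ⊓ T.Γ) T.Γ bot_le inf_le_right
    rw [Subgroup.relIndex_bot_left, Subgroup.relIndex_bot_left, hT.card_H, hT.card_Γ, ← hq] at h1
    refine Nat.eq_of_mul_eq_mul_left (pow_pos (show 0 < q - 1 by omega) 2) (h1.trans ?_)
    obtain ⟨k, hk⟩ : ∃ k, q = k + 1 := ⟨q - 1, by omega⟩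
    have : q ^ 4 - 1 = (q - 1) * ((q + 1) * (q ^ 2 + 1)) := by
      rw [hk, Nat.add_sub_cancel]; apply Nat.sub_eq_of_eq_add; ring
    rw [this]; ring
  have hs : ¬ 7 ∣ (E.H ⊓ T.Γ).relIndex T.Γ := by
    rw [hT.card_Γ, ← hq, ← ZMod.natCast_eq_zero_iff] at h7
    rw [hi, ← ZMod.natCast_eq_zero_iff]
    push_cast [Nat.cast_sub hq1.le, Nat.cast_sub (Nat.one_le_pow 4 q (by omega))] at h7 ⊢
    have h3 : (q : ZMod 7) ^ 3 = 1 := by
      rw [hK]; push_cast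
      rw [← pow_mul, mul_comm, pow_mul, show (2 : ZMod 7) ^ 3 = 1 from rfl, one_pow]
    exact k7 _ h7 h3
  obtain ⟨w, hw, h⟩ := (fus_tw hT.good hT.h3).single hs j hj hΓ φ hxm
    (y := c[1, 2, 4] * c[3, 6, 5]) (by rw [hφ, Perm.mem_alternatingGroup]; decide) hx (a := 2)
    (by decide +kernel)
  obtain ⟨ε⟩ := hT.weyl
  refine absurd (h 16 ?_) (by decide +kernel)
  have := pow_card_eq_one' (x := (⟨w, hw⟩ : T.S.W1))
  rw [Nat.card_congr ε.toEquiv, DihedralGroup.nat_card] at this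
  exact congrArg Subtype.val this

theorem relIndex_D4 {q : ℕ} (hT : IsD4 T q) : (E.H ⊓ T.Γ).relIndex T.Γ =
    q ^ 12 * (q + 1) * (q ^ 3 + 1) * (q ^ 8 + q ^ 4 + 1) := by
  have h2 := hT.two_le
  have h1 := Subgroup.relIndex_mul_relIndex ⊥ (E.H ⊓ T.Γ) T.Γ bot_le inf_le_right
  rw [Subgroup.relIndex_bot_left, Subgroup.relIndex_bot_left, hT.card_H, hT.card_Γ] at h1
  have h3 : 1 < q ^ 3 := Nat.one_lt_pow (by omega) h2
  refine Nat.eq_of_mul_eq_mul_left (Nat.mul_pos (show 0 < q ^ 3 - 1 by omega)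
    (show 0 < q - 1 by omega)) (h1.trans ?_)
  have e1 : q ^ 2 - 1 = (q + 1) * (q - 1) := by simpa using Nat.sq_sub_sq q 1
  have e2 : q ^ 6 - 1 = (q ^ 3 + 1) * (q ^ 3 - 1) := by
    have := Nat.sq_sub_sq (q ^ 3) 1
    rwa [← pow_mul, one_pow] at this
  rw [e1, e2]; ring

theorem not_alt_seven_D4 {q : ℕ} (hT : IsD4 T q) (hq : q ≡ 1 [MOD 5]) (j : Y →* G)
    (hj : Function.Injective j) (hΓ : ∀ y, j y ∈ T.Γ) (φ : Y →* Perm (Fin 7))
    (hφ : φ.range = alternatingGroup (Fin 7)) : False := by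
  have hs : ¬ 5 ∣ (E.H ⊓ T.Γ).relIndex T.Γ := by
    rw [relIndex_D4 hT, ← ZMod.natCast_eq_zero_iff]
    have e : (q : ZMod 5) = 1 := by simpa using (ZMod.natCast_eq_natCast_iff _ _ _).2 hq
    push_cast [e]
    decide
  have : Fact (Nat.Prime 5) := ⟨by decide⟩
  obtain ⟨w, hw, h⟩ := (fus_tw hT.good hT.h3).single hs j hj hΓ φ (x := c[0, 1, 2, 3, 4])
    (y := c[1, 2, 4, 3] * c[5, 6]) (by rw [hφ, Perm.mem_alternatingGroup]; decide)
    (by rw [hφ, Perm.mem_alternatingGroup]; decide)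
    (orderOf_eq_prime (by decide +kernel) (by decide)) (a := 2) (by decide +kernel)
  obtain ⟨ε⟩ := hT.weyl
  refine absurd (h 6 ?_) (by decide +kernel)
  have := pow_six_G2 CoxeterMatrix.G₂.toCoxeterSystem (ε ⟨w, hw⟩)
  rw [← map_pow, map_eq_one_iff ε ε.injective] at this
  exact congrArg Subtype.val this

theorem not_alt_eight_D4 {q : ℕ} (hT : IsD4 T q) (hq : q ≡ 1 [MOD 4])
    (h12 : Nat.card CoxeterMatrix.G₂.Group = 12) (j : Y →* G)
    (hj : Function.Injective j) (hΓ : ∀ y, j y ∈ T.Γ) (φ : Y →* Perm (Fin 8))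
    (hφ : φ.range = alternatingGroup (Fin 8)) : False := by
  obtain ⟨ε⟩ := hT.weyl
  refine (fus_tw hT.good hT.h3).not_alt_eight ?_ ((Nat.card_congr ε.toEquiv).trans h12)
    ((Elts.tor hT.h3).comp T.T1.subtype) ?_ (card_sq_le_four
      ((Pi.evalMonoidHom _ 0).comp T.T1.subtype) ((Pi.evalMonoidHom _ 1).comp T.T1.subtype) ?_)
    j hj hΓ φ hφ
  · rw [relIndex_D4 hT, ← ZMod.natCast_eq_zero_iff]
    obtain ⟨k, rfl⟩ : ∃ k, q = 4 * k + 1 := ⟨q / 4, by unfold Nat.ModEq at hq; omega⟩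
    push_cast
    generalize (k : ZMod 8) = a
    revert a
    decide
  · rw [hT.H_inf_Γ, MonoidHom.range_comp, Subgroup.range_subtype]
  · rintro ⟨c, hc⟩ h0 h1
    obtain ⟨-, h2, h3⟩ := hT.mem_T1.1 hc
    change c 0 = 1 at h0
    change c 1 = 1 at h1
    refine Subtype.ext (funext fun i => ?_)
    fin_cases i <;> simp_all

end H5
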